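import Cfsg.Agent.H602.L5.U1

/-!
# S5923, A3 (helper602): `|AT k| = 10⁴`

The root lattice has the basis `xb j, w8 (xb j)` (`j < 4`, `xb = sr ∘ ![0, 1, 3, 4]`); an element `t` of `AT k` is
determined by the four 10-th roots of unity `cX t (xb j)`, which are arbitrary.
-/

set_option autoImplicit false
set_option linter.unusedSectionVars false

namespace Cfsg.Agent.H602.L5

open CoxeterSystem Subgroup Cfsg Cfsg.Lie Cfsg.Lie.ChevalleyDatum
open Cfsg.Agent.ChevalleyStructure Cfsg.Agent.ChevalleyStructure.Elts Cfsg.Agent.ChevalleyStructure.CoxeterGeom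
  Cfsg.Agent.ChevalleyStructure.CoxeterGeomTypes Cfsg.Agent.ChevalleyStructure.NPerm
open Cfsg.Agent.Tits.Roots Cfsg.Agent.Tits.Core Cfsg.Agent.Nodes Cfsg.Agent.Nodes.SubComb Cfsg.Agent.Nodes.Reps
  Cfsg.Agent.Nodes.BNOf Cfsg.Agent.Nodes.RGDChev Cfsg.Agent.Nodes.Bruhat Cfsg.Agent.Nodes.Coroot
open Cfsg.Agent.KFacts.RgdField Cfsg.Agent.KFacts.RgdChevCoord Cfsg.Agent.BpExc.TorCent Cfsg.Agent.BpExc.TorChev
open Cfsg.Agent.GpExc.Field Cfsg.Agent.BpExc.Tow Cfsg.Agent.BpExc.TowChev Cfsg.Agent.BpExc.Fr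
  Cfsg.Agent.BpExc.LangFr Cfsg.Agent.BpExc.FamField Cfsg.Agent.BpExc.FamInst Cfsg.Agent.H129.TorusChar
  Cfsg.Agent.H795.LangT Cfsg.Agent.BpExc.FamExt Cfsg.Agent.BpExc.FamUntw Cfsg.Agent.H378.TorDual Cfsg.Agent.H378.TorChar
  Cfsg.Agent.H378.TorFin Cfsg.Agent.H378.RankOne Cfsg.Agent.H378.RootTor Cfsg.Agent.H865.EE Cfsg.Agent.H865.L5
  Cfsg.Agent.H241.L5

attribute [local irreducible] w8

/-! ### The basis -/

/-- the nodes of the basis -/
def xn : Fin 4 → Fin 8 := ![0, 1, 3, 4]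

/-- the coordinates -/
def PB : Fin 4 → Fin 8 → ℤ := ![![1, 0, 0, 0, 0, -1, 1, 0], ![0, 1, -1, 0, 0, 0, 0, 0], ![0, 0, -1, 1, 0, 1, -2, 0],
  ![0, 0, -1, 0, 1, 1, -2, 0]]

/-- the coordinates -/
def QB : Fin 4 → Fin 8 → ℤ := ![![0, 0, 0, 0, 0, 1, -1, 0], ![0, 0, 0, 0, 0, -1, 1, 1], ![0, 0, -1, 0, 0, 1, -1, 1],
  ![0, 0, -1, 0, 0, 0, 1, 0]]

/-- the coordinates -/
def pc (j : Fin 4) (y : Fin 8 → ℤ) : ℤ := ∑ i, PB j i * y i

/-- the coordinates -/
def qc (j : Fin 4) (y : Fin 8 → ℤ) : ℤ := ∑ i, QB j i * y i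

theorem pc_add (j : Fin 4) (x y : Fin 8 → ℤ) : pc j (x + y) = pc j x + pc j y := by
  rw [pc, pc, pc, ← Finset.sum_add_distrib]
  exact Finset.sum_congr rfl fun i _ => by rw [Pi.add_apply]; ring

theorem qc_add (j : Fin 4) (x y : Fin 8 → ℤ) : qc j (x + y) = qc j x + qc j y := by
  rw [qc, qc, qc, ← Finset.sum_add_distrib]
  exact Finset.sum_congr rfl fun i _ => by rw [Pi.add_apply]; ring

theorem pc_zero (j : Fin 4) : pc j 0 = 0 := by simp [pc]

theorem qc_zero (j : Fin 4) : qc j 0 = 0 := by simp [qc]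

theorem pc_w8 (j : Fin 4) (y : Fin 8 → ℤ) : pc j (act w8 y) = -qc j y := by
  have key : ∀ (j : Fin 4) (k : Fin 8), ∑ i, PB j i * WM i k = -QB j k := by decide +kernel
  rw [pc, qc, act_w8, ← Finset.sum_neg_distrib]
  simp_rw [Finset.mul_sum]
  rw [Finset.sum_comm]
  refine Finset.sum_congr rfl fun k _ => ?_
  rw [← neg_mul, ← key, Finset.sum_mul]
  exact Finset.sum_congr rfl fun i _ => by ring

theorem qc_w8 (j : Fin 4) (y : Fin 8 → ℤ) : qc j (act w8 y) = pc j y := by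
  have key : ∀ (j : Fin 4) (k : Fin 8), ∑ i, QB j i * WM i k = PB j k := by decide +kernel
  rw [pc, qc, act_w8]
  simp_rw [Finset.mul_sum]
  rw [Finset.sum_comm]
  refine Finset.sum_congr rfl fun k _ => ?_
  rw [← key, Finset.sum_mul]
  exact Finset.sum_congr rfl fun i _ => by ring

theorem eq_basis (y : Fin 8 → ℤ) : y = ∑ j, (pc j y • sr (xn j) + qc j y • act w8 (sr (xn j))) := by
  have key : ∀ i k : Fin 8, ∑ j, (PB j k * (sr (xn j) : Fin 8 → ℤ) i + QB j k * WM i (xn j)) = if i = k then 1 else 0 := by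
    decide +kernel
  funext i
  rw [Finset.sum_apply]
  have h1 : ∀ j, (pc j y • (sr (xn j) : Fin 8 → ℤ) + qc j y • act w8 (sr (xn j))) i =
      ∑ k, (PB j k * (sr (xn j) : Fin 8 → ℤ) i + QB j k * WM i (xn j)) * y k := by
    intro j
    rw [act_w8_sr, Pi.add_apply, Pi.smul_apply, Pi.smul_apply, smul_eq_mul, smul_eq_mul, pc, qc, Finset.sum_mul,
      Finset.sum_mul, ← Finset.sum_add_distrib]
    exact Finset.sum_congr rfl fun k _ => by ring
  rw [Finset.sum_congr rfl fun j _ => h1 j, Finset.sum_comm]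
  simp_rw [← Finset.sum_mul, key]
  simp

theorem pc_sr (j j' : Fin 4) : pc j (sr (xn j')) = if j = j' then 1 else 0 := by
  revert j j'
  decide +kernel

theorem qc_sr (j j' : Fin 4) : qc j (sr (xn j')) = 0 := by
  revert j j'
  decide +kernel

/-! ### The count -/

section

variable {k : Type} [Field k] [CharP k 3] [IsAlgClosed k] [PerfectRing k 3] (hk : LocFin k)

include hk in
/-- membership in `AT k` -/
theorem mem_AT {t : ↥(chevE8.group k)} :
    t ∈ AT k ↔ t ∈ TT chevE8 k ∧ (∀ x, cX tp8 t x ^ 10 = 1) ∧ ∀ x, cX tp8 t (act w8 x) = cX tp8 t x ^ 7 := by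
  constructor
  · intro ht
    exact ⟨ht.1, cX_AT_pow hk ht, AT_w8 hk ht⟩
  · rintro ⟨ht, h10, h⟩
    refine ⟨ht, ?_⟩
    show sg k t = t
    refine cX_inj tp8 (sg_TT hk ht) ht fun i => ?_
    rw [cX_sg hk ht, h, ← pow_mul, show 7 * 3 = 10 * 2 + 1 by norm_num, pow_succ, pow_mul, h10, one_pow, one_mul]

include hk in
/-- an element of `AT k` is determined by four values -/
theorem AT_ext {s t : ↥(chevE8.group k)} (hs : s ∈ AT k) (ht : t ∈ AT k)
    (h : ∀ j, cX tp8 s (sr (xn j)) = cX tp8 t (sr (xn j))) : s = t := by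
  refine cX_inj tp8 hs.1 ht.1 fun i => ?_
  rw [eq_basis (sr i), (isMC_cX tp8 hs.1).sum, (isMC_cX tp8 ht.1).sum]
  refine Finset.prod_congr rfl fun j _ => ?_
  rw [(isMC_cX tp8 hs.1).add, (isMC_cX tp8 ht.1).add, (isMC_cX tp8 hs.1).zsmul, (isMC_cX tp8 ht.1).zsmul,
    (isMC_cX tp8 hs.1).zsmul, (isMC_cX tp8 ht.1).zsmul, AT_w8 hk hs, AT_w8 hk ht, h]

include hk in
/-- the four values are arbitrary -/
theorem exists_AT (c : Fin 4 → k) (hc : ∀ j, c j ^ 10 = 1) : ∃ t ∈ AT k, ∀ j, cX tp8 t (sr (xn j)) = c j := by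
  have h0 : ∀ j, c j ≠ 0 := fun j e => by
    have := hc j
    rw [e, zero_pow (by norm_num)] at this
    exact zero_ne_one this
  have hz : ∀ j, c j ^ (10 : ℤ) = 1 := fun j => by
    have := hc j
    exact_mod_cast this
  have hmc : IsMC (fun y : Fin 8 → ℤ => ∏ j, c j ^ (pc j y + 7 * qc j y)) :=
    { zero := by
        show ∏ j, c j ^ (pc j 0 + 7 * qc j 0) = 1
        simp [pc_zero, qc_zero]
      add := fun x y => by
        show ∏ j, c j ^ (pc j (x + y) + 7 * qc j (x + y)) = _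
        rw [← Finset.prod_mul_distrib]
        refine Finset.prod_congr rfl fun j _ => ?_
        rw [← zpow_add₀ (h0 j), pc_add, qc_add]
        congr 1
        ring }
  obtain ⟨t, ht, h⟩ := exists_cX tp8 invC_E8 one_ne_zero hmc fun i => ⟨_, pow_one _⟩
  refine ⟨t, (mem_AT hk).2 ⟨ht, fun x => ?_, fun x => ?_⟩, fun j => ?_⟩
  · rw [h, ← Finset.prod_pow]
    refine Finset.prod_eq_one fun j _ => ?_
    rw [← zpow_natCast, ← zpow_mul, mul_comm, zpow_mul]
    rw [show ((10 : ℕ) : ℤ) = 10 by norm_num, hz, one_zpow]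
  · rw [h, h, ← Finset.prod_pow]
    refine Finset.prod_congr rfl fun j _ => ?_
    rw [pc_w8, qc_w8, ← zpow_natCast, ← zpow_mul,
      show (pc j x + 7 * qc j x) * ((7 : ℕ) : ℤ) = (-qc j x + 7 * pc j x) + 10 * (5 * qc j x) by push_cast; ring,
      zpow_add₀ (h0 j) (-qc j x + 7 * pc j x), zpow_mul (c j) 10, hz, one_zpow, mul_one]
  · rw [h, Finset.prod_eq_single j]
    · rw [pc_sr, qc_sr, if_pos rfl, mul_zero, add_zero, zpow_one]
    · intro j' _ hj
      rw [pc_sr, qc_sr, if_neg hj, mul_zero, add_zero, zpow_zero]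
    · intro hj
      exact absurd (Finset.mem_univ j) hj

theorem exists_zeta10 (k : Type) [Field k] [CharP k 3] [IsAlgClosed k] : ∃ ζ : k, IsPrimitiveRoot ζ 10 := by
  have : NeZero ((10 : ℕ) : k) := ⟨by
    intro h
    rw [CharP.cast_eq_zero_iff k 3] at h
    omega⟩
  obtain ⟨ζ, hζ⟩ := IsAlgClosed.exists_root (Polynomial.cyclotomic 10 k) (by
    rw [Polynomial.degree_cyclotomic]
    exact_mod_cast (Nat.totient_pos.2 (by norm_num)).ne')
  exact ⟨ζ, (Polynomial.isRoot_cyclotomic_iff).1 hζ⟩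

/-- A3 -/
theorem card_AT (hk : LocFin k) : Nat.card ↥(AT k) = 10 ^ 4 := by
  have e : ↥(AT k) ≃ (Fin 4 → ↥(rootsOfUnity 10 k)) := by
    refine Equiv.ofBijective (fun t j => ⟨Units.mk0 (cX tp8 t.1 (sr (xn j))) ((isMC_cX tp8 t.2.1).ne_zero _), ?_⟩)
      ⟨fun s t hst => ?_, fun c => ?_⟩
    · rw [mem_rootsOfUnity]
      apply Units.ext
      rw [Units.val_pow_eq_pow_val, Units.val_mk0, Units.val_one]
      exact cX_AT_pow hk t.2 _
    · apply Subtype.ext
      refine AT_ext hk s.2 t.2 fun j => ?_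
      have h1 := congrFun hst j
      exact congrArg (fun u : ↥(rootsOfUnity 10 k) => ((u : kˣ) : k)) h1
    · obtain ⟨t, ht, h⟩ := exists_AT hk (fun j => ((c j : kˣ) : k)) fun j => by
        have h1 := (c j).2
        rw [mem_rootsOfUnity] at h1
        rw [← Units.val_pow_eq_pow_val, h1, Units.val_one]
      refine ⟨⟨t, ht⟩, funext fun j => Subtype.ext (Units.ext ?_)⟩
      exact h j
  obtain ⟨ζ, hζ⟩ := exists_zeta10 k
  rw [Nat.card_congr e, Nat.card_fun, hζ.card_rootsOfUnity, Nat.card_eq_fintype_card, Fintype.card_fin]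

end

end Cfsg.Agent.H602.L5
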