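import Cfsg.Agent.H602.L5.Idem

/-!
# S5923, E1 (helper602): the module of a good homomorphism is irreducible

* `scalar` : on a module `M` of dimension 4 over `ZMod 3` with `J² = -1`, `R³ = 1`, `R ≠ 1`, every `G` with `G⁸ = 1`
  commuting with `J` and `R` is `a + b J`;
* `irr` : for `Hyp ρ` the only invariant submodules are `⊥` and `⊤`; `irred` : the same for `Good f`.
-/

set_option autoImplicit false
set_option linter.unusedSectionVars false

open Module

namespace Cfsg.Agent.H602.L5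

open Cfsg.Agent.H865.L5

/-! ### Modules of dimension 4 -/

section Abs

variable {M : Type*} [AddCommGroup M] [Module (ZMod 3) M] [FiniteDimensional (ZMod 3) M]

theorem even_of_sq (J : Module.End (ZMod 3) M) (hJ : J * J = -1) : Even (finrank (ZMod 3) M) := by
  by_contra hodd
  rw [Nat.not_even_iff_odd] at hodd
  have h1 := congrArg LinearMap.det hJ
  rw [map_mul] at h1
  have h2 : LinearMap.det (-1 : Module.End (ZMod 3) M) = (-1 : ZMod 3) := by
    have h3 : (-1 : Module.End (ZMod 3) M) = (-1 : ZMod 3) • (1 : Module.End (ZMod 3) M) := by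
      rw [neg_smul, one_smul]
    rw [h3, LinearMap.det_smul, hodd.neg_one_pow, map_one, mul_one]
  rw [h2] at h1
  revert h1
  generalize (LinearMap.det J : ZMod 3) = x
  revert x
  decide

theorem even_of_inv (J : Module.End (ZMod 3) M) (hJ : ∀ v, J (J v) = -v) (A : Submodule (ZMod 3) M)
    (hA : ∀ v ∈ A, J v ∈ A) : Even (finrank (ZMod 3) A) := by
  refine even_of_sq (J.restrict hA) ?_
  apply LinearMap.ext
  intro v
  apply Subtype.ext
  exact hJ v

theorem eq_comb (J : Module.End (ZMod 3) M) (hJ : ∀ v, J (J v) = -v) (A : Submodule (ZMod 3) M)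
    (hA : ∀ v ∈ A, J v ∈ A) (h2 : finrank (ZMod 3) A = 2) {v : M} (hv : v ∈ A) (h0 : v ≠ 0) {w : M} (hw : w ∈ A) :
    ∃ a b : ZMod 3, w = a • v + b • J v := by
  let φ : (ZMod 3 × ZMod 3) →ₗ[ZMod 3] A :=
    LinearMap.coprod (LinearMap.toSpanSingleton _ _ ⟨v, hv⟩) (LinearMap.toSpanSingleton _ _ ⟨J v, hA v hv⟩)
  have hφ : ∀ p, (φ p : M) = p.1 • v + p.2 • J v := fun p => rfl
  have hinj : Function.Injective φ := by
    rw [injective_iff_map_eq_zero]
    rintro ⟨a, b⟩ hab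
    have h1 : a • v + b • J v = 0 := by
      have := congrArg Subtype.val hab
      exact this
    have h3 : (a * a + b * b) • v = 0 := by
      have h4 := congrArg J h1
      rw [map_add, map_smul, map_smul, hJ, map_zero] at h4
      have h5 : a • (a • v + b • J v) - b • (a • J v + b • -v) = (a * a + b * b) • v := by
        module
      rw [← h5, h1, h4, smul_zero, smul_zero, sub_zero]
    have h6 : a * a + b * b = 0 := (smul_eq_zero.1 h3).resolve_right h0
    have h7 : ∀ a b : ZMod 3, a * a + b * b = 0 → a = 0 ∧ b = 0 := by decide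
    obtain ⟨rfl, rfl⟩ := h7 a b h6
    rfl
  have hfr : finrank (ZMod 3) (ZMod 3 × ZMod 3) = finrank (ZMod 3) A := by
    rw [Module.finrank_prod, finrank_self, h2]
  obtain ⟨p, hp⟩ := (LinearMap.injective_iff_surjective_of_finrank_eq_finrank hfr).1 hinj ⟨w, hw⟩
  exact ⟨p.1, p.2, by rw [← hφ, hp]⟩

theorem scalar (hM : finrank (ZMod 3) M = 4) (J R G : Module.End (ZMod 3) M) (hJ : ∀ v, J (J v) = -v) (hR3 : R ^ 3 = 1)
    (hR : R ≠ 1) (hG : G ^ 8 = 1) (hRJ : R * J = J * R) (hGJ : G * J = J * G) (hRG : R * G = G * R) :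
    ∃ a b : ZMod 3, G = a • 1 + b • J := by
  have : Nontrivial M := Module.nontrivial_of_finrank_pos (R := ZMod 3) (by rw [hM]; norm_num)
  have : CharP (Module.End (ZMod 3) M) 3 :=
    charP_of_injective_algebraMap (FaithfulSMul.algebraMap_injective (ZMod 3) (Module.End (ZMod 3) M)) 3
  set N := R - 1 with hN
  have hN3 : N ^ 3 = 0 := by
    rw [hN, sub_pow_char_of_commute 3 (Commute.one_right R), hR3, one_pow, sub_self]
  have hN0 : N ≠ 0 := fun h => hR (sub_eq_zero.1 h)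
  have hNJ : ∀ v, N (J v) = J (N v) := by
    intro v
    have := congrArg (fun f : Module.End (ZMod 3) M => f v) hRJ
    show R (J v) - J v = J (R v - v)
    rw [map_sub]
    exact congrArg (· - J v) this
  have hNG : ∀ v, N (G v) = G (N v) := by
    intro v
    have := congrArg (fun f : Module.End (ZMod 3) M => f v) hRG
    show R (G v) - G v = G (R v - v)
    rw [map_sub]
    exact congrArg (· - G v) this
  have hN3' : ∀ v, N (N (N v)) = 0 := by
    intro v
    have := congrArg (fun f : Module.End (ZMod 3) M => f v) hN3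
    exact this
  -- the kernel
  set A := LinearMap.ker N with hAdef
  set B := LinearMap.range N with hBdef
  have hAJ : ∀ v ∈ A, J v ∈ A := by
    intro v hv
    rw [hAdef, LinearMap.mem_ker] at hv ⊢
    rw [hNJ, hv, map_zero]
  have hBJ : ∀ v ∈ B, J v ∈ B := by
    rintro _ ⟨w, rfl⟩
    exact ⟨J w, hNJ w⟩
  have hCJ : ∀ v ∈ (B ⊓ A : Submodule (ZMod 3) M), J v ∈ (B ⊓ A : Submodule (ZMod 3) M) :=
    fun v hv => ⟨hBJ v hv.1, hAJ v hv.2⟩
  have hAe := even_of_inv J hJ A hAJ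
  have hBe := even_of_inv J hJ B hBJ
  have hCe := even_of_inv J hJ _ hCJ
  have hsum : finrank (ZMod 3) B + finrank (ZMod 3) A = 4 := by
    rw [← hM]
    exact LinearMap.finrank_range_add_finrank_ker N
  have hC0 : (B ⊓ A : Submodule (ZMod 3) M) ≠ ⊥ := by
    intro h
    have h1 : ∀ v, N (N v) = 0 → N v = 0 := by
      intro v hv
      have h2 : N v ∈ (B ⊓ A : Submodule (ZMod 3) M) := ⟨⟨v, rfl⟩, hv⟩
      rw [h] at h2
      exact (Submodule.mem_bot _).1 h2
    apply hN0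
    apply LinearMap.ext
    intro v
    exact h1 v (h1 (N v) (hN3' v))
  have hCpos : 0 < finrank (ZMod 3) (B ⊓ A : Submodule (ZMod 3) M) := by
    rw [Nat.pos_iff_ne_zero]
    intro h
    exact hC0 (Submodule.finrank_eq_zero.1 h)
  have hCA : finrank (ZMod 3) (B ⊓ A : Submodule (ZMod 3) M) ≤ finrank (ZMod 3) A := Submodule.finrank_mono inf_le_right
  have hCB : finrank (ZMod 3) (B ⊓ A : Submodule (ZMod 3) M) ≤ finrank (ZMod 3) B := Submodule.finrank_mono inf_le_left
  have hC2 : finrank (ZMod 3) (B ⊓ A : Submodule (ZMod 3) M) = 2 := by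
    obtain ⟨a, ha⟩ := hAe
    obtain ⟨b, hb⟩ := hBe
    obtain ⟨c, hc⟩ := hCe
    omega
  have hA2 : finrank (ZMod 3) A = 2 := by
    obtain ⟨a, ha⟩ := hAe
    obtain ⟨b, hb⟩ := hBe
    omega
  have hB2 : finrank (ZMod 3) B = 2 := by omega
  have hBA : B ≤ A := by
    have h1 : (B ⊓ A : Submodule (ZMod 3) M) = B := Submodule.eq_of_le_of_finrank_eq inf_le_left (by rw [hC2, hB2])
    rw [← h1]
    exact inf_le_right
  -- a vector of the kernel
  obtain ⟨v, hvA, hv0⟩ : ∃ v ∈ A, v ≠ 0 := by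
    by_contra hcon
    push Not at hcon
    have : A = ⊥ := (Submodule.eq_bot_iff _).2 hcon
    rw [this, finrank_bot] at hA2
    omega
  have hGv : G v ∈ A := by
    rw [hAdef, LinearMap.mem_ker] at hvA ⊢
    rw [hNG, hvA, map_zero]
  obtain ⟨a, b, hab⟩ := eq_comb J hJ A hAJ hA2 hvA hv0 hGv
  refine ⟨a, b, ?_⟩
  set L : Module.End (ZMod 3) M := a • 1 + b • J with hL
  have hLapp : ∀ w, L w = a • w + b • J w := fun w => rfl
  have hGJ' : ∀ w, G (J w) = J (G w) := fun w => congrArg (fun f : Module.End (ZMod 3) M => f w) hGJ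
  have hker : ∀ w ∈ A, G w = L w := by
    intro w hw
    obtain ⟨c, d, rfl⟩ := eq_comb J hJ A hAJ hA2 hvA hv0 hw
    rw [map_add, map_smul, map_smul, hGJ', hab, hLapp]
    simp only [map_add, map_smul, hJ]
    module
  have hNL : ∀ w, N (L w) = L (N w) := by
    intro w
    rw [hLapp, hLapp, map_add, map_smul, map_smul, hNJ]
  have hsq : (G - L) ^ 2 = 0 := by
    apply LinearMap.ext
    intro w
    rw [pow_two]
    show G (G w - L w) - L (G w - L w) = 0
    have h1 : G w - L w ∈ A := by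
      rw [hAdef, LinearMap.mem_ker, map_sub, hNG, hNL, hker _ (hBA ⟨w, rfl⟩), sub_self]
    rw [hker _ h1, sub_self]
  have hcomm : Commute G L := by
    rw [hL]
    refine Commute.add_right ?_ ?_
    · exact (Commute.one_right G).smul_right a
    · exact (show Commute G J from hGJ).smul_right b
  have h9 : G ^ 9 = L ^ 9 := by
    have h1 : (G - L) ^ 3 ^ 2 = 0 := by
      have h2 : (3 : ℕ) ^ 2 = 2 + 7 := by norm_num
      rw [h2, pow_add, hsq, zero_mul]
    rw [sub_pow_char_pow_of_commute 3 2 hcomm] at h1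
    exact sub_eq_zero.1 h1
  have hJ2 : J * J = -1 := LinearMap.ext hJ
  have hL9 : L ^ 9 = L := by
    have h1 : ∀ c : ZMod 3, c ^ 9 = c := by decide
    have h2 : L ^ 3 ^ 2 = (a • (1 : Module.End (ZMod 3) M)) ^ 3 ^ 2 + (b • J) ^ 3 ^ 2 := by
      rw [hL]
      exact add_pow_char_pow_of_commute 3 2 (((Commute.one_left J).smul_left a).smul_right b)
    have h3 : (3 : ℕ) ^ 2 = 9 := by norm_num
    rw [h3] at h2
    rw [h2, smul_pow, smul_pow, h1, h1, one_pow, hL]
    congr 2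
    calc J ^ 9 = (J * J) * (J * J) * (J * J) * (J * J) * J := by simp only [pow_succ, pow_zero, one_mul, mul_assoc]
      _ = J := by rw [hJ2]; simp
  have hG9 : G ^ 9 = G := by
    rw [pow_succ, hG, one_mul]
  rw [← hG9, h9, hL9]

end Abs

/-! ### Invariant submodules -/

/-- `u = I + e₁₂` -/
def mu : SL35 := us 0 0 1
/-- order 3, in the derived subgroup of the Levi subgroup -/
def mr : SL35 := ⟨!![1, 0, 0; 0, 0, 1; 0, 4, 4], by decide⟩
/-- order 8, commutes with `mr` -/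
def mg : SL35 := ⟨!![2, 0, 0; 0, 1, 2; 0, 3, 4], by decide⟩
/-- an element of the Levi subgroup -/
def mh : SL35 := ⟨!![2, 0, 0; 0, 0, 1; 0, 2, 0], by decide⟩
/-- an element of the Levi subgroup -/
def mk : SL35 := ⟨!![3, 0, 0; 0, 0, 1; 0, 3, 1], by decide⟩
/-- an element of the Levi subgroup -/
def mh1 : SL35 := ⟨!![4, 0, 0; 0, 0, 1; 0, 1, 0], by decide⟩
/-- an element of the Levi subgroup -/
def mh2 : SL35 := ⟨!![4, 0, 0; 0, 0, 1; 0, 1, 1], by decide⟩

theorem mr_mg : mr * mg = mg * mr := by decide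
theorem mr_pow : mr ^ 3 = 1 := by decide
theorem mg_pow : mg ^ 8 = 1 := by decide
theorem mr_z0 : mr * z0 = z0 * mr := by decide
theorem mg_z0 : mg * z0 = z0 * mg := by decide
theorem mh_z0 : mh * z0 = z0 * mh := by decide
theorem comm_eq : mg * mh = mk * mr * mk⁻¹ * mh * mg := by decide
theorem mu_eq : mu = (mh1 * mr * mh1⁻¹ * (mh2 * mr * mh2⁻¹)) ^ 2 := by decide
theorem mu_pow : mu ^ 5 = 1 := by decide

theorem us_pow (n : ℕ) : us 0 0 (n : ZMod 5) = mu ^ n := by
  induction n with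
  | zero =>
    rw [Nat.cast_zero, pow_zero]
    decide
  | succ n ih =>
    rw [Nat.cast_succ, ← us_mul_us, ih, pow_succ]
    rfl

section Irr

variable {V : Type*} [AddCommGroup V] [Module (ZMod 3) V] {ρ : SL35 →* Module.End (ZMod 3) V}

theorem ep_mem_of_inv {W : Submodule (ZMod 3) V} (hW : ∀ x, ∀ v ∈ W, ρ x v ∈ W) {v : V} (hv : v ∈ W) : ep ρ v ∈ W := by
  rw [ep_apply]
  exact Submodule.sum_mem _ fun ab _ => hW _ v hv

theorem eq_bot_of [FiniteDimensional (ZMod 3) V] (h : Hyp ρ) {W : Submodule (ZMod 3) V} (hW : ∀ x, ∀ v ∈ W, ρ x v ∈ W)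
    (h0 : W ⊓ fx ρ VP = ⊥) : W = ⊥ := by
  rw [Submodule.eq_bot_iff]
  intro v hv
  rw [← sum_eq_apply h v]
  refine Finset.sum_eq_zero fun q _ => ?_
  obtain ⟨x, rfl⟩ := QuotientGroup.mk_surjective q
  have h1 : ep ρ (ρ x⁻¹ v) ∈ W ⊓ fx ρ VP := ⟨ep_mem_of_inv hW (hW _ v hv), ep_mem ρ _⟩
  rw [h0] at h1
  rw [eq_apply_eq, (Submodule.mem_bot _).1 h1, map_zero]

theorem eq_top_of [FiniteDimensional (ZMod 3) V] (h : Hyp ρ) {W : Submodule (ZMod 3) V} (hW : ∀ x, ∀ v ∈ W, ρ x v ∈ W)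
    (h0 : W ⊓ fx ρ VP = fx ρ VP) : W = ⊤ := by
  rw [Submodule.eq_top_iff']
  intro v
  rw [← sum_eq_apply h v]
  refine Submodule.sum_mem _ fun q _ => ?_
  obtain ⟨x, rfl⟩ := QuotientGroup.mk_surjective q
  have h1 : ep ρ (ρ x⁻¹ v) ∈ W ⊓ fx ρ VP := by
    rw [h0]
    exact ep_mem ρ _
  rw [eq_apply_eq]
  exact hW x _ h1.1

/-- the action of `P0` on an invariant submodule -/
def act (ρ : SL35 →* Module.End (ZMod 3) V) (A : Submodule (ZMod 3) V) (hA : ∀ y ∈ P0, ∀ v ∈ A, ρ y v ∈ A) :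
    P0 →* Module.End (ZMod 3) A where
  toFun y := (ρ y.1).restrict (hA y.1 y.2)
  map_one' := by
    apply LinearMap.ext
    intro v
    apply Subtype.ext
    show ρ (1 : SL35) v = v
    rw [map_one]
    rfl
  map_mul' x y := by
    apply LinearMap.ext
    intro v
    apply Subtype.ext
    exact rho_mul ρ x.1 y.1 v

theorem act_apply {ρ : SL35 →* Module.End (ZMod 3) V} {A : Submodule (ZMod 3) V} (hA : ∀ y ∈ P0, ∀ v ∈ A, ρ y v ∈ A)
    (y : P0) (v : A) : (act ρ A hA y v : V) = ρ y.1 v := rfl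

theorem eq_zero_of_mu (h : Hyp ρ) {v : V} (hv : v ∈ fx ρ VP) (hu : ρ mu v = v) : v = 0 := by
  apply h.fixS
  rintro _ ⟨a, b, c, rfl⟩
  rw [us_eq, rho_mul, hv _ ⟨a, b, rfl⟩, ← ZMod.natCast_zmod_val c, us_pow]
  generalize c.val = n
  induction n with
  | zero =>
    rw [pow_zero, map_one]
    rfl
  | succ n ih => rw [pow_succ, rho_mul, hu, ih]

/-- the function defined by a linear map -/
def toFE (A : Type*) [AddCommGroup A] [Module (ZMod 3) A] : Module.End (ZMod 3) A →* Function.End A where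
  toFun g := (fun v => g v : A → A)
  map_one' := rfl
  map_mul' _ _ := rfl

theorem mem_fixedPoints_toFE {A : Type*} [AddCommGroup A] [Module (ZMod 3) A] {g : Module.End (ZMod 3) A} {v : A} :
    v ∈ Function.fixedPoints (toFE A g) ↔ g v = v := Iff.rfl

theorem eq_bot_or (h : Hyp ρ) [FiniteDimensional (ZMod 3) V] {A : Submodule (ZMod 3) V}
    (hA : ∀ y ∈ P0, ∀ v ∈ A, ρ y v ∈ A) (hU : A ≤ fx ρ VP) : A = ⊥ ∨ A = fx ρ VP := by
  classical
  by_contra hcon
  push Not at hcon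
  obtain ⟨h0, h1⟩ := hcon
  set σ := act ρ A hA with hσ
  have hpos : 0 < finrank (ZMod 3) A := by
    rw [Nat.pos_iff_ne_zero]
    intro h
    exact h0 (Submodule.finrank_eq_zero.1 h)
  have hlt : finrank (ZMod 3) A < 8 := by
    rw [← h.dim]
    exact Submodule.finrank_lt_finrank_of_lt (lt_of_le_of_ne hU h1)
  let u : P0 := ⟨mu, rfl, rfl⟩
  let r : P0 := ⟨mr, rfl, rfl⟩
  let g : P0 := ⟨mg, rfl, rfl⟩
  let x : P0 := ⟨mh, rfl, rfl⟩
  let k : P0 := ⟨mk, rfl, rfl⟩
  let x1 : P0 := ⟨mh1, rfl, rfl⟩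
  let x2 : P0 := ⟨mh2, rfl, rfl⟩
  let z : P0 := ⟨z0, rfl, rfl⟩
  have hu0 : ∀ v : A, σ u v = v → v = 0 := by
    intro v hv
    apply Subtype.ext
    exact eq_zero_of_mu h (hU v.2) (congrArg Subtype.val hv)
  -- the dimension
  have hfin : Finite A := Module.finite_of_finite (ZMod 3)
  have := Fintype.ofFinite A
  have h5 : Nat.Prime 5 := by norm_num
  have hcard := @Equiv.Perm.card_fixedPoints_modEq A _ _ (toFE A (σ u)) 5 1 ⟨h5⟩ (by
    rw [← map_pow, ← map_pow]
    have : u ^ 5 ^ 1 = 1 := Subtype.ext mu_pow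
    rw [this, map_one, map_one])
  have hfix : ∀ inst : Fintype ↑(Function.fixedPoints (toFE A (σ u))), @Fintype.card _ inst = 1 := by
    intro inst
    rw [Fintype.card_eq_one_iff]
    refine ⟨⟨0, mem_fixedPoints_toFE.2 (map_zero (σ u))⟩, ?_⟩
    rintro ⟨v, hv⟩
    apply Subtype.ext
    exact hu0 v (mem_fixedPoints_toFE.1 hv)
  rw [hfix, Module.card_eq_pow_finrank (K := ZMod 3), ZMod.card] at hcard
  have hd : finrank (ZMod 3) A = 4 := by
    revert hcard hpos hlt
    generalize finrank (ZMod 3) A = d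
    intro h2 h3 h4
    interval_cases d <;> revert h4 <;> decide
  -- the centralizer
  have hr1 : σ r = 1 := by
    by_contra hr
    have hzz : ∀ v, σ z (σ z v) = -v := fun v => Subtype.ext (h.zz v (hU v.2))
    have e1 : r * z = z * r := Subtype.ext mr_z0
    have e2 : g * z = z * g := Subtype.ext mg_z0
    have e3 : r * g = g * r := Subtype.ext mr_mg
    have e4 : x * z = z * x := Subtype.ext mh_z0
    have e5 : r ^ 3 = 1 := Subtype.ext mr_pow
    have e6 : g ^ 8 = 1 := Subtype.ext mg_pow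
    have e7 : g * x = k * r * k⁻¹ * (x * g) := by
      apply Subtype.ext
      show mg * mh = mk * mr * mk⁻¹ * (mh * mg)
      rw [comm_eq, mul_assoc _ mh mg]
    obtain ⟨a, b, hab⟩ := scalar hd (σ z) (σ r) (σ g) hzz (by rw [← map_pow, e5, map_one]) hr
      (by rw [← map_pow, e6, map_one]) (by rw [← map_mul, ← map_mul, e1]) (by rw [← map_mul, ← map_mul, e2])
      (by rw [← map_mul, ← map_mul, e3])
    have e8 : σ g * σ x = σ x * σ g := by
      rw [hab, add_mul, mul_add, smul_mul_assoc, smul_mul_assoc, mul_smul_comm, mul_smul_comm, one_mul, mul_one,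
        ← map_mul, ← map_mul, e4]
    have e9 : σ (k * r * k⁻¹) = 1 := by
      have e10 : σ (k * r * k⁻¹) * σ (x * g) = σ (x * g) := by
        rw [← map_mul, ← e7, map_mul, e8, map_mul]
      calc σ (k * r * k⁻¹) = σ (k * r * k⁻¹) * (σ (x * g) * σ (x * g)⁻¹) := by
            rw [← map_mul σ (x * g), mul_inv_cancel, map_one, mul_one]
        _ = 1 := by rw [← mul_assoc, e10, ← map_mul, mul_inv_cancel, map_one]
    apply hr
    have e11 : r = k⁻¹ * (k * r * k⁻¹) * k := by group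
    rw [e11, map_mul, map_mul, e9, mul_one, ← map_mul, inv_mul_cancel, map_one]
  have hconj : ∀ y : P0, σ (y * r * y⁻¹) = 1 := by
    intro y
    rw [map_mul, map_mul, hr1, mul_one, ← map_mul, mul_inv_cancel, map_one]
  have hu1 : σ u = 1 := by
    have e : u = (x1 * r * x1⁻¹ * (x2 * r * x2⁻¹)) ^ 2 := Subtype.ext mu_eq
    rw [e, map_pow, map_mul, hconj, hconj, mul_one, one_pow]
  apply h0
  rw [Submodule.eq_bot_iff]
  intro v hv
  have h2 := hu0 ⟨v, hv⟩ (by rw [hu1]; rfl)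
  exact congrArg Subtype.val h2

/-- **Irreducibility** -/
theorem irr (h : Hyp ρ) [FiniteDimensional (ZMod 3) V] (W : Submodule (ZMod 3) V) (hW : ∀ x, ∀ v ∈ W, ρ x v ∈ W) :
    W = ⊥ ∨ W = ⊤ := by
  have hA : ∀ y ∈ P0, ∀ v ∈ W ⊓ fx ρ VP, ρ y v ∈ W ⊓ fx ρ VP := fun y hy v hv =>
    ⟨hW y v hv.1, map_mem_fx ρ hy hv.2⟩
  rcases eq_bot_or h hA inf_le_right with h0 | h0
  · exact Or.inl (eq_bot_of h hW h0)
  · exact Or.inr (eq_top_of h hW h0)

end Irr

/-- E1 -/
theorem irred {f : SL35 →* G3} (h : Good f) (W : Submodule (ZMod 3) (Cfsg.Lie.chevE8.Idx → ZMod 3))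
    (hW : ∀ x, ∀ v ∈ W, ac (f x) v ∈ W) : W = ⊥ ∨ W = ⊤ :=
  irr (hyp_rp h) W hW

end Cfsg.Agent.H602.L5
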