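import Cfsg.Agent.H241.L5.Tor
import Cfsg.Agent.H343.L5.FiveElt
import Cfsg.Agent.H602.L5.Idem

/-!
# S5924, U1ab (helper602): the torus `AT k` of order `10⁴`

* `AT_pow` : exponent 10; `AT_w8 : cX t (w8 x) = cX t x ^ 7`; `T5_w8`;
* `cw_of_rp` : an element of `GT k` normalising the torus represents an element of `CW`;
* `exists_rp_of_norm` : an element normalising `f VP` represents an element of `CW`;
* `z0_AT_of` : `f z0` acts on `AT k` as `t ↦ t ^ 7`;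
* `card_AT2_of` : 16 elements with `t² = 1`;
* `uu_AT2` : `f (us 0 0 1)` has no fixed point on them.
-/

set_option autoImplicit false
set_option linter.unusedSectionVars false

namespace Cfsg.Agent.H602.L5

open CoxeterSystem Subgroup Cfsg Cfsg.Lie Cfsg.Lie.ChevalleyDatum
open Cfsg.Agent.ChevalleyStructure Cfsg.Agent.ChevalleyStructure.Elts Cfsg.Agent.ChevalleyStructure.CoxeterGeom
  Cfsg.Agent.ChevalleyStructure.CoxeterGeomTypes Cfsg.Agent.ChevalleyStructure.NPerm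
open Cfsg.Agent.Tits.Roots Cfsg.Agent.Tits.Core Cfsg.Agent.Nodes Cfsg.Agent.Nodes.SubComb Cfsg.Agent.Nodes.Reps
  Cfsg.Agent.Nodes.BNOf Cfsg.Agent.Nodes.RGDChev Cfsg.Agent.Nodes.Bruhat Cfsg.Agent.Nodes.Coroot
open Cfsg.Agent.KFacts.RgdField Cfsg.Agent.KFacts.RgdChevCoord Cfsg.Agent.BpExc.TorCent Cfsg.Agent.BpExc.TorChev
open Cfsg.Agent.GpExc.Field Cfsg.Agent.BpExc.Tow Cfsg.Agent.BpExc.TowChev Cfsg.Agent.BpExc.Fr
  Cfsg.Agent.BpExc.LangFr Cfsg.Agent.BpExc.FamField Cfsg.Agent.BpExc.FamInst Cfsg.Agent.H129.TorusChar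
  Cfsg.Agent.H795.LangT Cfsg.Agent.BpExc.FamExt Cfsg.Agent.BpExc.FamUntw Cfsg.Agent.H378.TorDual Cfsg.Agent.H378.TorChar
  Cfsg.Agent.H378.TorFin Cfsg.Agent.H378.RankOne Cfsg.Agent.H378.RootTor Cfsg.Agent.H865.EE Cfsg.Agent.H865.L5
  Cfsg.Agent.H241.L5

attribute [local irreducible] w8

variable {k : Type} [Field k] [CharP k 3] [IsAlgClosed k] [PerfectRing k 3] (hk : LocFin k)

/-! ### The characters of `AT k` -/

include hk in
/-- `t (w8 x)³ = t x` -/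
theorem AT_w8_three {t : ↥(chevE8.group k)} (ht : t ∈ AT k) (x : Fin 8 → ℤ) :
    cX tp8 t (act w8 x) ^ 3 = cX tp8 t x := by
  have h1 := cX_sg hk ht.1 x
  have h2 : sg k t = t := ht.2
  rw [h2] at h1
  exact h1.symm

include hk in
theorem cX_AT_pow {t : ↥(chevE8.group k)} (ht : t ∈ AT k) (x : Fin 8 → ℤ) : cX tp8 t x ^ 10 = 1 := by
  have h1 := AT_w8_three hk ht (act w8 x)
  rw [w8_sq, (isMC_cX tp8 ht.1).neg] at h1
  have h2 := AT_w8_three hk ht x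
  have h0 := (isMC_cX tp8 ht.1).ne_zero x
  -- `t x = (t (w8 x))³ = (t x)^{-9}`
  rw [← h1, inv_pow, inv_pow] at h2
  calc cX tp8 t x ^ 10 = cX tp8 t x * (cX tp8 t x ^ 3) ^ 3 := by ring
    _ = ((cX tp8 t x ^ 3) ^ 3)⁻¹ * (cX tp8 t x ^ 3) ^ 3 := by rw [h2]
    _ = 1 := inv_mul_cancel₀ (pow_ne_zero _ (pow_ne_zero _ h0))

include hk in
/-- `AT k` has exponent 10 -/
theorem AT_pow {t : ↥(chevE8.group k)} (ht : t ∈ AT k) : t ^ 10 = 1 := by
  refine cX_inj tp8 (pow_mem ht.1 10) (one_mem _) fun i => ?_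
  rw [cX_pow tp8 ht.1, cX_AT_pow hk ht, cX_one]

include hk in
theorem AT_w8 {t : ↥(chevE8.group k)} (ht : t ∈ AT k) (x : Fin 8 → ℤ) :
    cX tp8 t (act w8 x) = cX tp8 t x ^ 7 := by
  rw [← AT_w8_three hk ht x, ← pow_mul, show 3 * 7 = 10 * 2 + 1 by norm_num, pow_succ, pow_mul, cX_AT_pow hk ht,
    one_pow, one_mul]

include hk in
theorem cX_T5_pow {t : ↥(chevE8.group k)} (ht : t ∈ T5 k) (x : Fin 8 → ℤ) : cX tp8 t x ^ 5 = 1 := by
  rw [← cX_pow tp8 ht.1.1, ht.2, cX_one]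

include hk in
theorem T5_w8 {t : ↥(chevE8.group k)} (ht : t ∈ T5 k) (x : Fin 8 → ℤ) :
    cX tp8 t (act w8 x) = cX tp8 t x ^ 2 := by
  rw [AT_w8 hk ht.1 x, show 7 = 5 + 2 by norm_num, pow_add, cX_T5_pow hk ht, one_mul]

/-! ### Elements normalising the torus -/

include hk in
/-- an element of `GT k` normalising the torus represents an element of `CW` -/
theorem cw_of_rp {y : ↥(chevE8.group k)} (hy : y ∈ GT k) {w : W8} (h : Rp cs8 (nsysL tp8 cs8 hk 3) w y) : w ∈ CW := by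
  have hy' : sg k y = y := hy
  have h2 : ∀ x, act w8 (act w x) = act w (act w8 x) := by
    intro x
    refine cX_sep tp8 (k := k) invC_E8 one_ne_zero fun t ht => ?_
    -- `t = y s y⁻¹`
    obtain ⟨s, hs, hst⟩ : ∃ s ∈ TT chevE8 k, t = y * s * y⁻¹ := by
      refine ⟨y⁻¹ * t * y, ?_, by group⟩
      have h1 := rp_conj_TT hk h.inv ht
      rwa [inv_inv] at h1
    have hys : y * s * y⁻¹ ∈ TT chevE8 k := rp_conj_TT hk h hs
    apply frobenius_inj k 3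
    show cX tp8 t (act w8 (act w x)) ^ 3 = cX tp8 t (act w (act w8 x)) ^ 3
    rw [hst, ← cX_sg hk hys, cX_rp3 hk h hs, ← cX_sg hk hs, map_mul, map_mul, map_inv, hy']
    exact cX_rp3 hk h (sg_TT hk hs) x
  rw [CW, Subgroup.mem_centralizer_singleton_iff]
  exact act_ext fun x => by rw [act_mul, act_mul, h2]

/-- the family `f (vp a b)` -/
theorem fam_T5 {f : SL35 →* ↥(chevE8.group k)} (hT : ∀ s ∈ VP, f s ∈ T5 k) (p : A5) : f (vp p.1 p.2) ∈ T5 k :=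
  hT _ ⟨_, _, rfl⟩

include hk in
/-- an element normalising `f VP` normalises the torus and represents an element of `CW` -/
theorem exists_rp_of_norm {f : SL35 →* ↥(chevE8.group k)} (hT : ∀ s ∈ VP, f s ∈ T5 k) (hreg : Reg (f '' VP))
    {y : ↥(chevE8.group k)} (hy : y ∈ GT k) (h : ∀ s ∈ VP, ∃ s' ∈ VP, y⁻¹ * f s * y = f s') :
    ∃ w ∈ CW, Rp cs8 (nsysL tp8 cs8 hk 3) w y := by
  have h1 : ∀ p : A5, ∃ q : A5, y⁻¹ * f (vp p.1 p.2) * y = f (vp q.1 q.2) := by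
    intro p
    obtain ⟨_, ⟨c, d, rfl⟩, e⟩ := h _ ⟨p.1, p.2, rfl⟩
    exact ⟨(c, d), e⟩
  choose g hg using h1
  obtain ⟨w, n, hn, -, hnc⟩ := exists_rp_conj hk (s := fun p => f (vp (g p).1 (g p).2)) (t := fun p : A5 => f (vp p.1 p.2))
    (fun p => (fam_T5 hT _).1.1) (fun p => (fam_T5 hT _).1.1) (c := y) (fun p => by rw [← hg]; group)
  have e := hnc fun a ha => by
    obtain ⟨_, ⟨_, ⟨c, d, rfl⟩, rfl⟩, h⟩ := hreg a ha
    exact ⟨(c, d), h⟩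
  subst e
  exact ⟨w, cw_of_rp hk hy hn, hn⟩

/-! ### `z0` -/

theorem z0_vp (p : A5) : z0 * vp p.1 p.2 = vp p.1 p.2 * vp p.1 p.2 * z0 := by
  obtain ⟨a, b⟩ := p
  apply Subtype.ext
  show (!![4, 0, 0; 0, 2, 0; 0, 0, 2] : Matrix (Fin 3) (Fin 3) (ZMod 5)) * !![1, a, b; 0, 1, 0; 0, 0, 1] =
    !![1, a, b; 0, 1, 0; 0, 0, 1] * !![1, a, b; 0, 1, 0; 0, 0, 1] * !![4, 0, 0; 0, 2, 0; 0, 0, 2]
  have key : ∀ a : ZMod 5, 4 * a = (a + a) * 2 := by decide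
  ext i j
  fin_cases i <;> fin_cases j <;> simp [Matrix.mul_apply, Fin.sum_univ_three, key]
  decide

theorem z0_inv_vp (a b : ZMod 5) : z0⁻¹ * vp a b * z0 = vp (a + a + a) (b + b + b) := by
  have e1 := z0_vp (a + a + a, b + b + b)
  have e3 : vp (a + a + a) (b + b + b) * vp (a + a + a) (b + b + b) = vp a b := by
    rw [vp_mul]
    have key : ∀ a : ZMod 5, a + a + a + (a + a + a) = a := by decide
    rw [key, key]
  change z0 * vp (a + a + a) (b + b + b) = vp (a + a + a) (b + b + b) * vp (a + a + a) (b + b + b) * z0 at e1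
  rw [e3] at e1
  rw [mul_assoc, ← e1]
  group

include hk in
/-- `f z0` represents `w8⁻¹` -/
theorem rp_z0_of
    (five_elt : ∀ {u : W8}, u ∈ CW → ∀ {n : ℕ}, u ^ 5 ^ n = 1 → u ^ 5 = 1)
    (fix_line : ∀ {u : W8}, u ∈ CW → u ^ 5 = 1 → u ≠ 1 → ∀ {φ ψ : Module.Dual (ZMod 5) (Fin 4 → ZMod 5)},
      (∀ x, φ (PP (act u x)) = φ (PP x)) → (∀ x, ψ (PP (act u x)) = ψ (PP x)) → φ ≠ 0 → ∃ c : ZMod 5, ψ = c • φ)
    {ζ : k} (hζ : IsPrimitiveRoot ζ 5) {e : Module.Dual (ZMod 5) (Fin 4 → ZMod 5) → ↥(chevE8.group k)}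
    (hrg : Set.range e = T5 k) (he : ∀ φ x, cX tp8 (e φ) x = ζ ^ (φ (PP x)).val)
    {f : SL35 →* ↥(chevE8.group k)} (hf : Function.Injective f) (hr : ∀ x, f x ∈ GT k) (hT : ∀ s ∈ VP, f s ∈ T5 k)
    (hreg : Reg (f '' VP)) : Rp cs8 (nsysL tp8 cs8 hk 3) w8⁻¹ (f z0) := by
  obtain ⟨S, hS⟩ : ∃ S : A5 → ↥(chevE8.group k), ∀ p, S p = f (vp p.1 p.2) := ⟨_, fun _ => rfl⟩
  have hS5 : ∀ p, S p ∈ T5 k := fun p => by rw [hS]; exact fam_T5 hT p
  have hST : ∀ p, S p ∈ TT chevE8 k := fun p => (hS5 p).1.1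
  have hSm : ∀ p q, S (p + q) = S p * S q := fun p q => by rw [hS, hS, hS, vp_add, map_mul]
  have hSi : Function.Injective S := fun p q hpq => by
    rw [hS, hS] at hpq
    have h0 := hf hpq
    have h1 := congrArg (fun g : SL35 => g.1 0 1) h0
    have h2 := congrArg (fun g : SL35 => g.1 0 2) h0
    exact Prod.ext h1 h2
  have hSreg : ∀ a, Rt a → ∃ p, cX tp8 (S p) a ≠ 1 := fun a ha => by
    obtain ⟨_, ⟨_, ⟨c, d, rfl⟩, rfl⟩, h⟩ := hreg a ha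
    exact ⟨(c, d), by rw [hS]; exact h⟩
  -- `f z0` represents `ω ∈ CW`
  have hnorm : ∀ s ∈ VP, ∃ s' ∈ VP, (f z0)⁻¹ * f s * f z0 = f s' := by
    rintro _ ⟨a, b, rfl⟩
    exact ⟨_, ⟨_, _, rfl⟩, by rw [← z0_inv_vp, map_mul, map_mul, map_inv]⟩
  obtain ⟨ω, hω, hrp⟩ := exists_rp_of_norm hk hT hreg (hr z0) hnorm
  have hcS : ∀ p, f z0 * S p * (f z0)⁻¹ = S p * S p := fun p => by
    have e := congrArg f (z0_vp p)
    rw [map_mul, map_mul, map_mul] at e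
    rw [hS, e]
    group
  have hω3 : ∀ p x, cX tp8 (S p) (act ω x) = cX tp8 (S p) x ^ 3 := fun p x => by
    have h1 := cX_rp3 hk hrp (hST p) x
    rw [hcS, cX_mul tp8 (hST p) (hST p), ← sq] at h1
    rw [← h1, ← pow_mul, show 2 * 3 = 5 + 1 by norm_num, pow_succ, cX_T5_pow hk (hS5 p), one_mul]
  have hone : w8 * ω = 1 := by
    refine eq_one_of_fixes five_elt fix_line hζ hrg he hS5 hSm hSi hSreg (w := w8 * ω) (mul_mem ?_ hω) fun p x => ?_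
    · rw [CW, Subgroup.mem_centralizer_singleton_iff]
    · rw [act_mul, T5_w8 hk (hS5 p), hω3, ← pow_mul, show 3 * 2 = 5 + 1 by norm_num, pow_succ, cX_T5_pow hk (hS5 p),
        one_mul]
  rw [← eq_inv_of_mul_eq_one_right hone]
  exact hrp

include hk in
theorem z0_AT_of
    (five_elt : ∀ {u : W8}, u ∈ CW → ∀ {n : ℕ}, u ^ 5 ^ n = 1 → u ^ 5 = 1)
    (fix_line : ∀ {u : W8}, u ∈ CW → u ^ 5 = 1 → u ≠ 1 → ∀ {φ ψ : Module.Dual (ZMod 5) (Fin 4 → ZMod 5)},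
      (∀ x, φ (PP (act u x)) = φ (PP x)) → (∀ x, ψ (PP (act u x)) = ψ (PP x)) → φ ≠ 0 → ∃ c : ZMod 5, ψ = c • φ)
    {ζ : k} (hζ : IsPrimitiveRoot ζ 5) {e : Module.Dual (ZMod 5) (Fin 4 → ZMod 5) → ↥(chevE8.group k)}
    (hrg : Set.range e = T5 k) (he : ∀ φ x, cX tp8 (e φ) x = ζ ^ (φ (PP x)).val)
    {f : SL35 →* ↥(chevE8.group k)} (hf : Function.Injective f) (hr : ∀ x, f x ∈ GT k) (hT : ∀ s ∈ VP, f s ∈ T5 k)
    (hreg : Reg (f '' VP)) {t : ↥(chevE8.group k)} (ht : t ∈ AT k) : f z0 * t * (f z0)⁻¹ = t ^ 7 := by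
  have hrp := rp_z0_of hk five_elt fix_line hζ hrg he hf hr hT hreg
  refine cX_inj tp8 (rp_conj_TT hk hrp ht.1) (pow_mem ht.1 7) fun i => ?_
  have h1 := cX_rp3 hk hrp ht.1 (act w8 (sr i))
  rw [act_inv_act] at h1
  rw [h1, AT_w8 hk ht, cX_pow tp8 ht.1]

/-! ### The elements of order 2 -/

include hk in
theorem card_AT2_of (h1 : Nat.card ↥(AT k) = 10 ^ 4) (h2 : Nat.card ↥(T5 k) = 625) :
    Nat.card {t : ↥(chevE8.group k) // t ∈ AT k ∧ t ^ 2 = 1} = 16 := by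
  have hcm : ∀ {a b : ↥(chevE8.group k)}, a ∈ AT k → b ∈ AT k → a * b = b * a := fun ha hb =>
    TT_comm (K := k) tp8 _ ha.1 _ hb.1
  let e : ↥(AT k) ≃ {t : ↥(chevE8.group k) // t ∈ AT k ∧ t ^ 2 = 1} × ↥(T5 k) :=
    { toFun := fun t => (⟨t.1 ^ 5, pow_mem t.2 5, by rw [← pow_mul]; exact AT_pow hk t.2⟩,
        ⟨t.1 ^ 6, pow_mem t.2 6, by
          rw [← pow_mul, show 6 * 5 = 10 * 3 by norm_num, pow_mul, AT_pow hk t.2, one_pow]⟩)
      invFun := fun q => ⟨q.1.1 * q.2.1, mul_mem q.1.2.1 q.2.2.1⟩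
      left_inv := fun t => by
        apply Subtype.ext
        show t.1 ^ 5 * t.1 ^ 6 = t.1
        rw [← pow_add, show 5 + 6 = 10 + 1 by norm_num, pow_succ, AT_pow hk t.2, one_mul]
      right_inv := fun q => by
        obtain ⟨⟨a, ha, ha2⟩, ⟨b, hb⟩⟩ := q
        have hc : Commute a b := hcm ha hb.1
        have hb5 : b ^ 5 = 1 := hb.2
        apply Prod.ext
        · apply Subtype.ext
          show (a * b) ^ 5 = a
          rw [hc.mul_pow, hb5, mul_one, show 5 = 2 * 2 + 1 by norm_num, pow_succ, pow_mul, ha2, one_pow, one_mul]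
        · apply Subtype.ext
          show (a * b) ^ 6 = b
          rw [hc.mul_pow, show 6 = 2 * 3 by norm_num, pow_mul, ha2, one_pow, one_mul, show 2 * 3 = 5 + 1 by norm_num,
            pow_succ, hb5, one_mul] }
  have h3 := Nat.card_congr e
  rw [Nat.card_prod, h1, h2] at h3
  omega

theorem uu_vp (a b : ZMod 5) : (us 0 0 1)⁻¹ * vp a b * us 0 0 1 = vp a (b + a) := by
  have h := vp_us a b 1
  rw [mul_assoc, h, mul_one]
  group

theorem uu_pow : (us 0 0 1) ^ 5 = 1 := by decide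

theorem uu_ne : us 0 0 1 * vp 1 0 ≠ vp 1 0 * us 0 0 1 := by decide

include hk in
/-- **No fixed involution** -/
theorem uu_AT2 {f : SL35 →* ↥(chevE8.group k)} (hf : Function.Injective f) (hr : ∀ x, f x ∈ GT k)
    (hT : ∀ s ∈ VP, f s ∈ T5 k) (hreg : Reg (f '' VP)) {t : ↥(chevE8.group k)} (ht : t ∈ AT k) (h2 : t ^ 2 = 1)
    (h : t * f (us 0 0 1) = f (us 0 0 1) * t) : t = 1 := by
  obtain ⟨u, hu, hrp⟩ := exists_rp_of_norm hk hT hreg (hr (us 0 0 1)) (by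
    rintro _ ⟨a, b, rfl⟩
    exact ⟨_, ⟨a, b + a, rfl⟩, by rw [← map_inv, ← map_mul, ← map_mul, uu_vp]⟩)
  have h1 : u ≠ 1 := by
    rintro rfl
    have h3 : f (us 0 0 1) ∈ TT chevE8 k := hrp.mem_of_one
    have h4 := TT_comm (K := k) tp8 _ h3 _ (hT (vp 1 0) ⟨1, 0, rfl⟩).1.1
    exact uu_ne (hf (by rw [map_mul, map_mul]; exact h4))
  have h5 : u ^ 5 = 1 := by
    have h3 : ∀ n : ℕ, Rp cs8 (nsysL tp8 cs8 hk 3) (u ^ n) (f (us 0 0 1) ^ n) := by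
      intro n
      induction n with
      | zero => rw [pow_zero, pow_zero]; exact rp_one
      | succ n ih => rw [pow_succ, pow_succ]; exact ih.mul hrp
    have h4 := h3 5
    rw [← map_pow, uu_pow, map_one] at h4
    exact rp_inj hk h4 rp_one
  have hfix : ∀ x, cX tp8 t (act u x) = cX tp8 t x := fun x => by
    have h3 := cX_rp3 hk hrp ht.1 x
    rwa [← h, mul_inv_cancel_right] at h3
  have hmc := isMC_cX tp8 ht.1
  have h6 : ∀ x, cX tp8 t x ^ 5 = 1 := fun x => by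
    have h3 := congrArg (cX tp8 t) (Cfsg.Agent.H343.L5.sum_zero' hu h5 h1 x)
    rw [hmc.add, hmc.add, hmc.add, hmc.add, hfix, hfix, hfix, hfix, hfix, hfix, hfix, hfix, hfix, hfix, hmc.zero] at h3
    rw [← h3]
    ring
  have h7 : t ^ 5 = 1 := by
    refine cX_inj tp8 (pow_mem ht.1 5) (one_mem _) fun i => ?_
    rw [cX_pow tp8 ht.1, h6, cX_one]
  calc t = t ^ 5 * ((t ^ 2) ^ 2)⁻¹ := by group
    _ = 1 := by rw [h7, h2]; group

end Cfsg.Agent.H602.L5
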