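import Cfsg.Agent.H602.L5.CardAT
import Cfsg.Agent.H865.L5.Iso
import Cfsg.Agent.H343.L5.FiveElt

/-!
# S5924, U1ab (helper602): unconditional versions of `z0_AT`, `card_AT2`
-/

set_option autoImplicit false
set_option linter.unusedSectionVars false

namespace Cfsg.Agent.H602.L5

open CoxeterSystem Subgroup Cfsg Cfsg.Lie Cfsg.Lie.ChevalleyDatum
open Cfsg.Agent.ChevalleyStructure Cfsg.Agent.ChevalleyStructure.Elts Cfsg.Agent.ChevalleyStructure.CoxeterGeom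
  Cfsg.Agent.ChevalleyStructure.CoxeterGeomTypes Cfsg.Agent.ChevalleyStructure.NPerm
open Cfsg.Agent.Tits.Roots Cfsg.Agent.Tits.Core Cfsg.Agent.Nodes Cfsg.Agent.Nodes.SubComb Cfsg.Agent.Nodes.Reps
  Cfsg.Agent.Nodes.BNOf Cfsg.Agent.Nodes.RGDChev Cfsg.Agent.Nodes.Bruhat Cfsg.Agent.Nodes.Coroot
open Cfsg.Agent.KFacts.RgdField Cfsg.Agent.KFacts.RgdChevCoord Cfsg.Agent.BpExc.TorCent Cfsg.Agent.BpExc.TorChev
open Cfsg.Agent.GpExc.Field Cfsg.Agent.BpExc.Tow Cfsg.Agent.BpExc.TowChev Cfsg.Agent.BpExc.Fr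
  Cfsg.Agent.BpExc.LangFr Cfsg.Agent.BpExc.FamField Cfsg.Agent.BpExc.FamInst Cfsg.Agent.H129.TorusChar
  Cfsg.Agent.H795.LangT Cfsg.Agent.BpExc.FamExt Cfsg.Agent.BpExc.FamUntw Cfsg.Agent.H378.TorDual Cfsg.Agent.H378.TorChar
  Cfsg.Agent.H378.TorFin Cfsg.Agent.H378.RankOne Cfsg.Agent.H378.RootTor Cfsg.Agent.H865.EE Cfsg.Agent.H865.L5

attribute [local irreducible] w8

variable {k : Type} [Field k] [CharP k 3] [IsAlgClosed k] [PerfectRing k 3]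

/-- `f z0` represents `w8⁻¹` -/
theorem rp_z0 (hk : LocFin k) {f : SL35 →* ↥(chevE8.group k)} (hf : Function.Injective f) (hr : ∀ x, f x ∈ GT k)
    (hT : ∀ s ∈ VP, f s ∈ T5 k) (hreg : Reg (f '' VP)) : Rp cs8 (nsysL tp8 cs8 hk 3) w8⁻¹ (f z0) := by
  obtain ⟨ζ, hζ⟩ := exists_zeta3 k
  obtain ⟨e, -, hrg, -, he⟩ := exists_iso3 hk hζ
  exact rp_z0_of hk (fun {u} hu {n} h => H343.L5.five_elt hu h)
    (fun {u} hu h5 h1 {φ ψ} hφ hψ h0 => H343.L5.fix_line hu h5 h1 hφ hψ h0) hζ hrg he hf hr hT hreg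

/-- `f z0` acts on `AT k` as `t ↦ t⁷` -/
theorem z0_AT (hk : LocFin k) {f : SL35 →* ↥(chevE8.group k)} (hf : Function.Injective f) (hr : ∀ x, f x ∈ GT k)
    (hT : ∀ s ∈ VP, f s ∈ T5 k) (hreg : Reg (f '' VP)) : ∀ t ∈ AT k, f z0 * t * (f z0)⁻¹ = t ^ 7 := by
  obtain ⟨ζ, hζ⟩ := exists_zeta3 k
  obtain ⟨e, -, hrg, -, he⟩ := exists_iso3 hk hζ
  exact fun t ht => z0_AT_of hk (fun {u} hu {n} h => H343.L5.five_elt hu h)
    (fun {u} hu h5 h1 {φ ψ} hφ hψ h0 => H343.L5.fix_line hu h5 h1 hφ hψ h0) hζ hrg he hf hr hT hreg ht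

/-- sixteen elements with `t² = 1` -/
theorem card_AT2 (hk : LocFin k) : Nat.card {t : ↥(chevE8.group k) // t ∈ AT k ∧ t ^ 2 = 1} = 16 :=
  card_AT2_of hk (card_AT hk) (card_T5 hk)

end Cfsg.Agent.H602.L5
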